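import Cfsg.Agent.H26.GolayModel

/-!
# Basic facts about the length-24 code, derived from the model

* closure of `supports golayCode` under symmetric difference and complement, possible weights;
* the 759 octads (`octadMasks`, `octadFinset`), `octads.ncard = 759`;
* the octads form a Steiner system S(5, 8, 24), and the numbers of octads containing a given set
  of at most five points.
-/

set_option autoImplicit false

namespace Cfsg.Agent.H26

open Cfsg

/-- The code as a family of supports. -/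
abbrev GC : Set (Finset GolayPt) := supports (golayCode : Set (GolayPt → ZMod 2))

theorem support_add (w w' : GolayPt → ZMod 2) :
    support₂ (w + w') = symmDiff (support₂ w) (support₂ w') := by
  ext p
  simp only [support₂, Finset.mem_filter, Finset.mem_univ, true_and, Pi.add_apply,
    Finset.mem_symmDiff]
  have key : ∀ a b : ZMod 2, (a + b ≠ 0) ↔ ((a ≠ 0 ∧ ¬ b ≠ 0) ∨ (b ≠ 0 ∧ ¬ a ≠ 0)) := by decide
  exact key _ _

theorem symmDiff_mem_GC {s t : Finset GolayPt} (hs : s ∈ GC) (ht : t ∈ GC) : symmDiff s t ∈ GC := by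
  obtain ⟨w, hw, rfl⟩ := hs
  obtain ⟨w', hw', rfl⟩ := ht
  exact ⟨w + w', golayCode.add_mem hw hw', support_add w w'⟩

theorem empty_mem_GC : (∅ : Finset GolayPt) ∈ GC :=
  (mem_supports_iff _).mpr ⟨0, zero_mem_codeMasks, setOf_zero.symm⟩

theorem univ_mem_GC : (Finset.univ : Finset GolayPt) ∈ GC :=
  (mem_supports_iff _).mpr ⟨0xffffff, full_mem_codeMasks, setOf_full.symm⟩

theorem compl_mem_GC {s : Finset GolayPt} (hs : s ∈ GC) : sᶜ ∈ GC := by
  have h := symmDiff_mem_GC univ_mem_GC hs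
  have e : symmDiff Finset.univ s = sᶜ := by
    ext p
    simp [Finset.mem_symmDiff]
  rwa [e] at h

theorem card_of_mem_GC {s : Finset GolayPt} (hs : s ∈ GC) :
    s.card = 0 ∨ s.card = 8 ∨ s.card = 12 ∨ s.card = 16 ∨ s.card = 24 := by
  obtain ⟨m, hm, rfl⟩ := (mem_supports_iff s).mp hs
  rw [card_setOf]
  exact codeMasks_weights m hm

theorem eq_empty_of_mem_GC_of_card_lt {s : Finset GolayPt} (hs : s ∈ GC) (h : s.card < 8) :
    s = ∅ := by
  rcases card_of_mem_GC hs with h0 | h0 | h0 | h0 | h0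
  · exact Finset.card_eq_zero.mp h0
  all_goals omega

theorem eq_univ_of_mem_GC_of_card_gt {s : Finset GolayPt} (hs : s ∈ GC) (h : 16 < s.card) :
    s = Finset.univ := by
  rcases card_of_mem_GC hs with h0 | h0 | h0 | h0 | h0
  · omega
  · omega
  · omega
  · omega
  · apply Finset.eq_univ_of_card
    rw [h0]
    rfl

theorem card_golayPt : Fintype.card GolayPt = 24 := by
  rfl

/-! ### Octads -/

/-- The masks of the 759 octads. -/
def octadMasks : List ℕ :=
  [
   0xc75001, 0x49f002, 0x8ea003, 0xd4b004, 0x13e005, 0x9d4006, 0x5a1007, 0x6e3008, 0xa96009, 0x27c00a,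
   0xe0900b, 0xba800c, 0x34200f, 0x9b3010, 0x5c6011, 0xd2c012, 0x159013, 0x4f8014, 0x88d015, 0x67016,
   0xc12017, 0xf50018, 0x325019, 0x21b01c, 0x68401e, 0xb66020, 0x713021, 0x38c023, 0x62d024, 0xa58025,
   0x2b2026, 0xd85028, 0x1f0029, 0x91a02a, 0xce02c, 0x45102e, 0x82402f, 0x2d5030, 0xea0031, 0x64a032,
   0xb01036, 0x436038, 0x843039, 0xa903a, 0x50803d, 0xecc040, 0x2b9041, 0xa53042, 0x626043, 0x387044,
   0x718046, 0x82f048, 0x45a049, 0xcb004a, 0xc504b, 0x56404c, 0x91104d, 0xb0a051, 0x3e0052, 0xa34054,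
   0x641055, 0x19c058, 0x50305a, 0xa205d, 0x84805e, 0x5aa060, 0x135062, 0xd40063, 0x8e1064, 0x494065,
   0xb067, 0x349068, 0xe0206c, 0xc19070, 0x6c071, 0x886072, 0x152074, 0x21007b, 0x1ed080, 0xd98081,
   0x572082, 0x907083, 0xca6084, 0xd3085, 0x839086, 0x44c087, 0x70e088, 0x39108a, 0xa4508c, 0x63008d,
   0x85e090, 0x42b091, 0xcc1092, 0xb4093, 0x515094, 0x960095, 0x18a096, 0x2c8099, 0xa2209a, 0xa8b0a0,
   0xe140a2, 0x2610a3, 0x7c00a4, 0xc680a8, 0x1d0a9, 0x4820ab, 0x1230ac, 0x3380b0, 0x2060b5, 0x1440ba,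
   0x8900bc, 0xf210c0, 0x3540c1, 0x26a0c4, 0xa800c7, 0x9c20c8, 0x1280cb, 0x4890cc, 0x160ce, 0x6920d0,
   0x20d0d2, 0x710d8, 0xc040d9, 0x4470e0, 0x8320e1, 0xd80e2, 0x90c0e4, 0x2a40e8, 0x1810f1, 0x4200f6,
   0x3da100, 0x745102, 0xb30103, 0xe91104, 0x2e4105, 0xa0e106, 0x539108, 0x94c109, 0x1a610a, 0x87210c,
   0x40710d, 0x9810f, 0xa69110, 0x61c111, 0x283113, 0x722114, 0xc8a118, 0x81511a, 0x46011b, 0x1c111c,
   0x8bc120, 0x4c9121, 0xc23122, 0x56123, 0x982125, 0x168126, 0x22a129, 0xac012a, 0x31412c, 0x10f130,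
   0x590132, 0xc44134, 0x31135, 0xd16140, 0x163141, 0x989142, 0x5d144, 0xc28145, 0x4c2146, 0x780149,
   0x22114e, 0x4a5150, 0x8d0151, 0x3a152, 0x104157, 0x246158, 0x670160, 0xa05161, 0x93168, 0x40c16a,
   0x288174, 0x920178, 0x237180, 0xe42181, 0x6a8182, 0x309185, 0x4d4188, 0x8a1189, 0x4b18a, 0xd0018e,
   0xb84190, 0x250196, 0x112199, 0x2c19c, 0x9511a0, 0x5241a1, 0x41a1a4, 0x851a6, 0xe21b0, 0x8081b3,
   0x6011b8, 0x8e1c1, 0x8641c2, 0x4111c3, 0x1b01c4, 0xa181c8, 0x5481d0, 0x8031d4, 0x3021e2, 0x401ed,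
   0x7b4200, 0xbc1201, 0x32b202, 0x68a205, 0xe60206, 0x215207, 0x157208, 0xd22209, 0x5c820a, 0xc1c20c,
   0x6920d, 0x88320e, 0xe07210, 0x272211, 0xa98212, 0x34c214, 0x8e4218, 0x491219, 0xe21b, 0x13021e,
   0xcd2220, 0xa7221, 0x84d222, 0x438223, 0x199224, 0x506226, 0xa31228, 0x644229, 0x561230, 0x914231,
   0x82a234, 0xc0237, 0x382238, 0x978240, 0x50d241, 0x192243, 0x433244, 0x846245, 0xac246, 0xb0424a,
   0x2d024c, 0xcb250, 0x454252, 0x821253, 0xd80254, 0x628258, 0x21e260, 0x681262, 0x320265, 0x888269,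
   0x6226a, 0x527c, 0x659280, 0xa2c281, 0x2c6282, 0xb12284, 0xba288, 0x42528a, 0x85028b, 0x18428d,
   0x700293, 0x2a1294, 0x909298, 0x44229c, 0x14a2a1, 0x9a02a2, 0x742a4, 0xc012a5, 0x2082ae, 0x48c2b0,
   0x132b2, 0x8952c0, 0x4e02c1, 0xc0a2c2, 0x1412c6, 0x2032c9, 0x1262d0, 0x182d5, 0x5102e8, 0xa402f0,
   0x46e300, 0x81b301, 0xf1302, 0xc84303, 0x925304, 0x550305, 0x28d308, 0x61230a, 0x1a8311, 0x942312,
   0x96314, 0x409316, 0xa0031d, 0xf08320, 0x243324, 0x10132b, 0x4a032c, 0x224332, 0x58338, 0xaa2340,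
   0x248343, 0xc41348, 0x34349, 0x10a34c, 0x311350, 0x1c4360, 0x810366, 0x402371, 0x583380, 0x11c382,
   0x8c8384, 0x22387, 0x360388, 0xc30390, 0x45391, 0x2903a1, 0x8063a8, 0x6043c4, 0x803da, 0x293e0,
   0xb1d400, 0x768401, 0xf82402, 0x656404, 0xa23405, 0x2c9406, 0x18b409, 0x96140a, 0x51440b, 0xb540c,
   0xcc040d, 0x42a40e, 0x2ae410, 0x631412, 0xa44413, 0x390415, 0x44d418, 0x838419, 0xd241a, 0x90641c,
   0x7b420, 0xc0e421, 0x4e4422, 0x891423, 0xd30424, 0x145425, 0x698428, 0x20742a, 0x9c8430, 0x122433,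
   0x483434, 0x1c436, 0x26043c, 0x5d1440, 0x9a4441, 0x14e442, 0x89a444, 0xc05446, 0x70447, 0x332448,
   0x20c44d, 0xc62450, 0x17451, 0x488453, 0x129454, 0xa81458, 0x2c2461, 0xa28462, 0x854468, 0x421469,
   0x18046e, 0x704470, 0xaf0480, 0x685481, 0x21a483, 0x324486, 0xc13488, 0x66489, 0x88c48a, 0x15848c,
   0x343490, 0xe08494, 0x5a0498, 0x149f, 0x1964a0, 0x5094a2, 0xa84a5, 0x8424a6, 0xb004a9, 0x8254b0,
   0x4504b1, 0x43c4c0, 0x8494c1, 0xa34c2, 0x5024c5, 0x6404ca, 0x9104d2, 0xc44d4, 0x2114e4, 0xa4f8,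
   0x8c7500, 0x4b2501, 0xc58502, 0x2d503, 0x58c504, 0x113506, 0xe24508, 0x251509, 0x174510, 0xd01511,
   0x4a515, 0x8a0516, 0x30851a, 0x3a1520, 0x600527, 0x542528, 0x80952c, 0xa12530, 0x84539, 0x60b540,
   0x294542, 0xb40544, 0xe8548, 0x80254b, 0x41055c, 0x118561, 0x26564, 0x41572, 0x92a580, 0x1c0583,
   0x461584, 0x814585, 0x28258c, 0x99590, 0x406592, 0x24c5a0, 0x305aa, 0x1055c8, 0x2205d1, 0xc805e0,
   0xca9600, 0xdc601, 0x836602, 0x443603, 0x1e2604, 0x908607, 0xa4a608, 0x2a060b, 0x70160c, 0x51a610,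
   0x185612, 0x851614, 0x424615, 0x350622, 0xa84624, 0x12c628, 0x1262d, 0x209631, 0xc0063a, 0x265640,
   0xe10641, 0x486648, 0x1964a, 0x202656, 0x140659, 0x903660, 0x448664, 0xb0670, 0xd44680, 0x131681,
   0xf684, 0x490686, 0x882691, 0x68692, 0x214698, 0x6226a0, 0xc16a8, 0x3886c0, 0x8206cc, 0x46e3,
   0x306701, 0x238704, 0x990708, 0x4470e, 0x6c0710, 0x23718, 0x415720, 0x860721, 0x8a722, 0x520742,
   0x81745, 0x80c750, 0xa01782, 0x408789, 0x1007b4, 0x527c0, 0xe3a800, 0x24f801, 0xaa5802, 0x6d0803,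
   0x371804, 0xf04805, 0x8d9808, 0x4ac809, 0xc4680a, 0x3380b, 0x59280c, 0x10d80e, 0x789810, 0x316812,
   0xac2814, 0x228817, 0x16a818, 0x98081b, 0xc2181c, 0x5481d, 0x55c820, 0x929821, 0x1c3822, 0x817824,
   0x462825, 0xc88826, 0x72082a, 0x28182d, 0x9a831, 0x870832, 0x405833, 0x1a4834, 0xa0c838, 0xf6840,
   0xc83841, 0x469842, 0x81c843, 0x1c8845, 0x922846, 0x615848, 0xa60849, 0x28a84a, 0x945850, 0x530851,
   0x40e854, 0x91856, 0xb90860, 0x244866, 0x106869, 0x3886c, 0x223870, 0x4c0878, 0x3a2881, 0xb48882,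
   0x29c884, 0x603886, 0x934888, 0x541889, 0x80a88d, 0xe088e, 0x664890, 0xa11891, 0x87898, 0x41889a,
   0x4b18a0, 0x8c48a1, 0x2e8a2, 0x1108a7, 0x2528a8, 0xd028b0, 0x498b4, 0x11b8c0, 0x5848c2, 0xc508c4,
   0x258c5, 0x8a88d0, 0x428d3, 0x3008dc, 0x6088e1, 0x8018ea, 0xde0900, 0x195901, 0x50a903, 0xab904,
   0x434906, 0x841907, 0xb03908, 0x64890c, 0x453910, 0x826911, 0xcc912, 0x918914, 0x2b0918, 0x686920,
   0x219922, 0x65928, 0xc10929, 0x340931, 0x293e, 0x32c940, 0x212945, 0x15094a, 0x88494c, 0xe00952,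
   0x9959, 0x84a960, 0xa0963, 0x501964, 0xc0d980, 0x78981, 0x892982, 0x146984, 0x20498b, 0x121992,
   0x480995, 0xa209a4, 0x1889a8, 0x2c19c0, 0x4229c8, 0x149f0, 0x98ea00, 0xd11a02, 0x164a03, 0x4c5a04,
   0x8b0a05, 0x5aa06, 0x318a09, 0x226a0c, 0x3da10, 0xc48a11, 0x4a2a12, 0x103a15, 0x241a1a, 0x2e8a20,
   0xa02a23, 0x40ba28, 0x94a2a, 0x940a2c, 0x610a34, 0x742a40, 0xa09a44, 0x1a1a48, 0x400a4f, 0x284a51,
   0x812a58, 0xc24a60, 0x51a61, 0x108a72, 0x863a80, 0x416a81, 0x89a83, 0x528a84, 0xe80a88, 0x1d0a90,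
   0x804a96, 0x305aa0, 0x20ab9, 0x230ac2, 0x4cac8, 0x82ae4, 0xa54b00, 0x621b01, 0x380b06, 0xc2b09,
   0x828b0a, 0x504b18, 0x132b20, 0xcb25, 0x881b30, 0x498b40, 0x7b42, 0x60b54, 0x11b8c, 0x20ab90,
   0x440ba2, 0x900bc1, 0x527c00, 0x952c01, 0x1b8c02, 0x86cc04, 0x419c05, 0x86c07, 0x3c4c08, 0xa10c0e,
   0xc94c10, 0xe1c11, 0x80bc12, 0x540c16, 0x602c19, 0xe41c20, 0x234c21, 0x30ac24, 0x8a2c28, 0x48c2b,
   0x111c38, 0x301c43, 0x6a0c44, 0xd08c48, 0x43c4c, 0x258c50, 0x24c5a, 0x8dc60, 0x412c62, 0x800c75,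
   0x4cac80, 0x55c82, 0xc20c83, 0x981c84, 0x229c88, 0x10cc91, 0x32c94, 0x404cac, 0x280cb2, 0xa06cc0,
   0x90cc9, 0x160ce0, 0xa88d01, 0x262d02, 0x1ed08, 0x481d0a, 0x120d0d, 0x205d14, 0x904d22, 0xd0d24,
   0x428d30, 0x831d40, 0x444d41, 0x182d50, 0x710d80, 0x840d98, 0x3da1, 0x8dc6, 0x293e00, 0x60ce02,
   0x470e08, 0x805e09, 0xb20e10, 0x88e1c, 0x580e21, 0x21e26, 0x46e30, 0x2ae41, 0x8c0e42, 0x114e44,
   0x240e85, 0x102e8a, 0x818ea0, 0x401ed0, 0x149f00, 0xc02f04, 0x10f13, 0x200f68, 0xa4f80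
  ]

theorem octadMasks_eq : octadMasks = codeMasks.filter (fun m => pc 24 m == 8) := by
  have h : (octadMasks == codeMasks.filter (fun m => pc 24 m == 8)) = true := by
    decide +kernel
  exact eq_of_beq h

theorem mem_octadMasks {m : ℕ} : m ∈ octadMasks ↔ m ∈ codeMasks ∧ pc 24 m = 8 := by
  rw [octadMasks_eq, List.mem_filter]
  simp

theorem octadMasks_nodup : octadMasks.Nodup := by
  rw [octadMasks_eq]
  exact codeMasks_nodup.filter _

theorem octadMasks_length : octadMasks.length = 759 := by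
  have h : (octadMasks.map (fun _ => 0) == List.replicate 759 0) = true := by
    decide +kernel
  have h2 := congrArg List.length (eq_of_beq h)
  rw [List.length_map, List.length_replicate] at h2
  exact h2

theorem mem_octads_iff (o : Finset GolayPt) : o ∈ octads ↔ ∃ m ∈ octadMasks, o = setOf m := by
  constructor
  · rintro ⟨ho, hc⟩
    obtain ⟨m, hm, rfl⟩ := (mem_supports_iff o).mp ho
    rw [card_setOf] at hc
    exact ⟨m, mem_octadMasks.mpr ⟨hm, hc⟩, rfl⟩
  · rintro ⟨m, hm, rfl⟩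
    obtain ⟨hm1, hm2⟩ := mem_octadMasks.mp hm
    exact ⟨(mem_supports_iff _).mpr ⟨m, hm1, rfl⟩, by rw [card_setOf]; exact hm2⟩

theorem setOf_injOn_codeMasks {m m' : ℕ} (hm : m ∈ codeMasks) (hm' : m' ∈ codeMasks)
    (h : setOf m = setOf m') : m = m' :=
  setOf_injOn (codeMasks_lt m hm) (codeMasks_lt m' hm') h

/-- The octads as a `Finset`. -/
def octadFinset : Finset (Finset GolayPt) := (octadMasks.map setOf).toFinset

theorem mem_octadFinset {o : Finset GolayPt} : o ∈ octadFinset ↔ o ∈ octads := by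
  rw [mem_octads_iff, octadFinset, List.mem_toFinset, List.mem_map]
  constructor
  · rintro ⟨m, hm, rfl⟩
    exact ⟨m, hm, rfl⟩
  · rintro ⟨m, hm, rfl⟩
    exact ⟨m, hm, rfl⟩

theorem coe_octadFinset : (octadFinset : Set (Finset GolayPt)) = octads := by
  ext o
  exact mem_octadFinset

theorem card_octadFinset : octadFinset.card = 759 := by
  rw [octadFinset, List.toFinset_card_of_nodup, List.length_map, octadMasks_length]
  apply List.Nodup.map_on _ octadMasks_nodup
  intro x hx y hy h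
  exact setOf_injOn_codeMasks (mem_octadMasks.mp hx).1 (mem_octadMasks.mp hy).1 h

attribute [irreducible] octadMasks octadFinset

theorem octads_ncard : octads.ncard = 759 := by
  rw [← coe_octadFinset, Set.ncard_coe_finset, card_octadFinset]

theorem octad_card {o : Finset GolayPt} (ho : o ∈ octads) : o.card = 8 := ho.2

theorem octad_mem_GC {o : Finset GolayPt} (ho : o ∈ octads) : o ∈ GC := ho.1

theorem card_symmDiff_eq (s t : Finset GolayPt) :
    (symmDiff s t).card + 2 * (s ∩ t).card = s.card + t.card := by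
  have h1 : (symmDiff s t).card = (s \ t).card + (t \ s).card := by
    rw [symmDiff_def, Finset.sup_eq_union, Finset.card_union_of_disjoint]
    exact Finset.disjoint_left.mpr fun x hx hx' =>
      (Finset.mem_sdiff.mp hx').2 (Finset.mem_sdiff.mp hx).1
  have h2 := Finset.card_sdiff_add_card_inter s t
  have h3 := Finset.card_sdiff_add_card_inter t s
  rw [Finset.inter_comm t s] at h3
  omega

/-- Two distinct octads meet in at most four points. -/
theorem octad_inter_card_le {o o' : Finset GolayPt} (ho : o ∈ octads) (ho' : o' ∈ octads)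
    (hne : o ≠ o') : (o ∩ o').card ≤ 4 := by
  by_contra hlt
  have h1 := card_symmDiff_eq o o'
  rw [octad_card ho, octad_card ho'] at h1
  have h2 : (symmDiff o o').card < 8 := by omega
  have h3 := eq_empty_of_mem_GC_of_card_lt (symmDiff_mem_GC ho.1 ho'.1) h2
  exact hne (symmDiff_eq_bot.mp h3)

/-- Two distinct octads meet in 0, 2 or 4 points. -/
theorem octad_inter_card {o o' : Finset GolayPt} (ho : o ∈ octads) (ho' : o' ∈ octads)
    (hne : o ≠ o') : (o ∩ o').card = 0 ∨ (o ∩ o').card = 2 ∨ (o ∩ o').card = 4 := by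
  have h1 := card_symmDiff_eq o o'
  rw [octad_card ho, octad_card ho'] at h1
  have h2 := octad_inter_card_le ho ho' hne
  rcases card_of_mem_GC (symmDiff_mem_GC ho.1 ho'.1) with h | h | h | h | h <;> omega

theorem octad_eq_of_five {t o o' : Finset GolayPt} (ht : 5 ≤ t.card) (ho : o ∈ octads)
    (ho' : o' ∈ octads) (hto : t ⊆ o) (hto' : t ⊆ o') : o = o' := by
  by_contra hne
  have h := octad_inter_card_le ho ho' hne
  have h2 : t.card ≤ (o ∩ o').card := Finset.card_le_card (Finset.subset_inter hto hto')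
  omega

/-- Every 5-set lies in some octad (by counting). -/
theorem exists_octad_of_five {t : Finset GolayPt} (ht : t.card = 5) : ∃ o ∈ octads, t ⊆ o := by
  classical
  let X : Finset (Σ _ : Finset GolayPt, Finset GolayPt) :=
    octadFinset.sigma (fun o => o.powersetCard 5)
  have hX : X.card = 42504 := by
    rw [Finset.card_sigma]
    have : ∀ o ∈ octadFinset, (o.powersetCard 5).card = 56 := by
      intro o ho
      rw [Finset.card_powersetCard, octad_card (mem_octadFinset.mp ho)]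
      rfl
    rw [Finset.sum_congr rfl this, Finset.sum_const, card_octadFinset]
    rfl
  have hinj : Set.InjOn (fun x : Σ _ : Finset GolayPt, Finset GolayPt => x.2) (X : Set _) := by
    rintro ⟨o, u⟩ hx ⟨o', u'⟩ hx' (h : u = u')
    subst h
    simp only [X, Finset.coe_sigma, Set.mem_sigma_iff, Finset.mem_coe, Finset.mem_powersetCard] at hx hx'
    have : o = o' := octad_eq_of_five (le_of_eq hx.2.2.symm) (mem_octadFinset.mp hx.1)
      (mem_octadFinset.mp hx'.1) hx.2.1 hx'.2.1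
    subst this
    rfl
  have himg : X.image (fun x => x.2) = (Finset.univ : Finset GolayPt).powersetCard 5 := by
    apply Finset.eq_of_subset_of_card_le
    · intro u hu
      obtain ⟨⟨o, u'⟩, hx, rfl⟩ := Finset.mem_image.mp hu
      simp only [X, Finset.mem_sigma, Finset.mem_powersetCard] at hx
      simp only [Finset.mem_powersetCard, Finset.subset_univ, true_and]
      exact hx.2.2
    · rw [Finset.card_image_of_injOn hinj, hX, Finset.card_powersetCard, Finset.card_univ,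
        card_golayPt]
      decide
  have ht' : t ∈ X.image (fun x => x.2) := by
    rw [himg]
    simp [ht]
  obtain ⟨⟨o, u⟩, hx, rfl⟩ := Finset.mem_image.mp ht'
  simp only [X, Finset.mem_sigma, Finset.mem_powersetCard] at hx
  exact ⟨o, mem_octadFinset.mp hx.1, hx.2.1⟩

/-- The octads form a Steiner system S(5, 8, 24). -/
theorem octads_steiner : IsSteinerSystem 5 8 octads := by
  refine ⟨fun b hb => octad_card hb, fun s hs => ?_⟩
  obtain ⟨o, ho, hso⟩ := exists_octad_of_five hs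
  refine ⟨o, ⟨ho, hso⟩, ?_⟩
  rintro o' ⟨ho', hso'⟩
  exact octad_eq_of_five (le_of_eq hs.symm) ho' ho hso' hso

/-! ### Transfer of counts from masks to sets -/

theorem disjoint_setOf_iff {m m' : ℕ} (hm : m < 2 ^ 24) :
    Disjoint (setOf m) (setOf m') ↔ m &&& m' = 0 := by
  rw [Finset.disjoint_iff_inter_eq_empty, ← setOf_and]
  constructor
  · intro h
    have hlt : m &&& m' < 2 ^ 24 := lt_of_le_of_lt Nat.and_le_left hm
    exact setOf_injOn hlt (by norm_num) (h.trans setOf_zero.symm)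
  · intro h
    rw [h, setOf_zero]

theorem subset_setOf_iff {m m' : ℕ} (hm : m < 2 ^ 24) :
    setOf m ⊆ setOf m' ↔ m &&& m' = m := by
  rw [← Finset.inter_eq_left, ← setOf_and]
  constructor
  · intro h
    have hlt : m &&& m' < 2 ^ 24 := lt_of_le_of_lt Nat.and_le_left hm
    exact setOf_injOn hlt hm h
  · intro h
    rw [h]

/-- Counting octads with a property reduces to counting masks. -/
theorem card_filter_octadFinset (P : Finset GolayPt → Prop) [DecidablePred P] (q : ℕ → Bool)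
    (h : ∀ m ∈ octadMasks, P (setOf m) ↔ q m = true) :
    (octadFinset.filter P).card = (octadMasks.filter q).length := by
  have e : octadFinset.filter P = ((octadMasks.filter q).map setOf).toFinset := by
    ext o
    simp only [Finset.mem_filter, mem_octadFinset, mem_octads_iff, List.mem_toFinset, List.mem_map,
      List.mem_filter]
    constructor
    · rintro ⟨⟨m, hm, rfl⟩, hP⟩
      exact ⟨m, ⟨hm, (h m hm).mp hP⟩, rfl⟩
    · rintro ⟨m, ⟨hm, hq⟩, rfl⟩
      exact ⟨⟨m, hm, rfl⟩, (h m hm).mpr hq⟩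
  rw [e, List.toFinset_card_of_nodup, List.length_map]
  apply List.Nodup.map_on _ (octadMasks_nodup.filter _)
  intro x hx y hy hxy
  exact setOf_injOn_codeMasks (mem_octadMasks.mp (List.mem_filter.mp hx).1).1
    (mem_octadMasks.mp (List.mem_filter.mp hy).1).1 hxy

/-! ### Kernel-friendly list loops (raw recursors) -/

/-- `l.all p`, written with the raw recursor (cheap for the kernel). -/
def lall (p : ℕ → Bool) (l : List ℕ) : Bool :=
  @List.rec ℕ (fun _ => Bool) true (fun a _ ih => cond (p a) ih false) l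

theorem lall_eq (p : ℕ → Bool) (l : List ℕ) : lall p l = l.all p := by
  induction l with
  | nil => rfl
  | cons a l ih =>
    show cond (p a) (lall p l) false = _
    rw [ih, List.all_cons]
    cases p a <;> rfl

theorem lall_iff {p : ℕ → Bool} {l : List ℕ} : lall p l = true ↔ ∀ x ∈ l, p x = true := by
  rw [lall_eq, List.all_eq_true]

/-- Auxiliary counting loop with a forced accumulator. -/
def lcountAux (p : ℕ → Bool) (l : List ℕ) : ℕ → ℕ :=
  @List.rec ℕ (fun _ => ℕ → ℕ) (fun acc => acc)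
    (fun a _ ih acc => @Nat.rec (fun _ => ℕ) (ih (cond (p a) 1 0))
      (fun k _ => ih (cond (p a) (k + 2) (k + 1))) acc) l

/-- `(l.filter p).length`, written with raw recursors. -/
def lcount (p : ℕ → Bool) (l : List ℕ) : ℕ := lcountAux p l 0

theorem lcountAux_eq (p : ℕ → Bool) (l : List ℕ) (acc : ℕ) :
    lcountAux p l acc = acc + (l.filter p).length := by
  induction l generalizing acc with
  | nil => rfl
  | cons a l ih =>
    have h : lcountAux p (a :: l) acc = lcountAux p l (cond (p a) (acc + 1) acc) := by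
      cases acc with
      | zero => rfl
      | succ k => rfl
    rw [h, ih, List.filter_cons]
    cases p a <;> simp <;> omega

theorem lcount_eq (p : ℕ → Bool) (l : List ℕ) : lcount p l = (l.filter p).length := by
  rw [lcount, lcountAux_eq, zero_add]

theorem octadMasks_disjoint_count :
    lall (fun o => Nat.beq (lcount (fun o' => Nat.beq (Nat.land o o') 0) octadMasks) 30)
      octadMasks = true := by
  decide +kernel

/-- Every octad is disjoint from exactly 30 octads. -/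
theorem card_octads_disjoint {o : Finset GolayPt} (ho : o ∈ octads) :
    (octadFinset.filter (fun o' => Disjoint o o')).card = 30 := by
  obtain ⟨m, hm, rfl⟩ := (mem_octads_iff o).mp ho
  rw [card_filter_octadFinset (fun o' => Disjoint (setOf m) o') (fun o' => Nat.beq (Nat.land m o') 0)]
  · have := lall_iff.mp octadMasks_disjoint_count m hm
    rw [lcount_eq] at this
    exact Nat.eq_of_beq_eq_true this
  · intro m' _
    rw [disjoint_setOf_iff (codeMasks_lt m (mem_octadMasks.mp hm).1)]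
    constructor
    · intro h
      show Nat.beq (m &&& m') 0 = true
      rw [h]; rfl
    · intro h
      exact Nat.eq_of_beq_eq_true h

end Cfsg.Agent.H26
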