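import Cfsg.Prelude.Def_Sporadic_a
import Mathlib

/-!
# A kernel-computable model of the length-24 code `Cfsg.golayCode`

Points are indexed `some x ↦ x.val`, `none ↦ 23`; a word / a set of points is a `Nat` bitmask.
Main results:
* `mem_golayCode_iff`, `mem_supports_iff` : the code is the image of the explicit list `allMasks`
  (4096 masks) under `wordOf` / `setOf`.
* `card_setOf` : the cardinality of `setOf m` is the popcount `pc 24 m`.
-/

set_option autoImplicit false

namespace Cfsg.Agent.H26

open Cfsg

/-- Index of a point: `some x ↦ x.val`, `none ↦ 23`. -/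
def ptIdx : GolayPt → ℕ
  | none => 23
  | some x => x.val

theorem ptIdx_lt (p : GolayPt) : ptIdx p < 24 := by
  cases p with
  | none => decide
  | some x => exact lt_trans (ZMod.val_lt x) (by decide)

theorem ptIdx_injective : Function.Injective ptIdx := by
  intro p q h
  cases p with
  | none =>
    cases q with
    | none => rfl
    | some y =>
      have := ZMod.val_lt y
      simp only [ptIdx] at h
      omega
  | some x =>
    cases q with
    | none =>
      have := ZMod.val_lt x
      simp only [ptIdx] at h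
      omega
    | some y =>
      simp only [ptIdx] at h
      rw [ZMod.val_injective 23 h]

/-- The point with a given index. -/
def idxPt (i : ℕ) : GolayPt := if i < 23 then some (i : ZMod 23) else none

theorem ptIdx_idxPt {i : ℕ} (hi : i < 24) : ptIdx (idxPt i) = i := by
  unfold idxPt
  split_ifs with h
  · simp only [ptIdx]
    exact ZMod.val_natCast_of_lt h
  · simp only [ptIdx]
    omega

theorem idxPt_ptIdx (p : GolayPt) : idxPt (ptIdx p) = p :=
  ptIdx_injective (ptIdx_idxPt (ptIdx_lt p))

/-- The word with a given bitmask. -/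
def wordOf (m : ℕ) : GolayPt → ZMod 2 := fun p => if m.testBit (ptIdx p) then 1 else 0

/-- The set of points with a given bitmask. -/
def setOf (m : ℕ) : Finset GolayPt := Finset.univ.filter fun p => m.testBit (ptIdx p)

theorem mem_setOf {m : ℕ} {p : GolayPt} : p ∈ setOf m ↔ m.testBit (ptIdx p) = true := by
  simp [setOf]

theorem support_wordOf (m : ℕ) : support₂ (wordOf m) = setOf m := by
  ext p
  simp only [support₂, wordOf, setOf, Finset.mem_filter, Finset.mem_univ, true_and]
  by_cases h : m.testBit (ptIdx p) <;> simp [h]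

theorem wordOf_xor (m m' : ℕ) : wordOf (m ^^^ m') = wordOf m + wordOf m' := by
  funext p
  simp only [wordOf, Pi.add_apply, Nat.testBit_xor]
  cases m.testBit (ptIdx p) <;> cases m'.testBit (ptIdx p) <;> decide

theorem wordOf_zero : wordOf 0 = 0 := by
  funext p
  simp [wordOf]

theorem setOf_xor (m m' : ℕ) : setOf (m ^^^ m') = symmDiff (setOf m) (setOf m') := by
  ext p
  simp only [mem_setOf, Nat.testBit_xor, Finset.mem_symmDiff]
  cases m.testBit (ptIdx p) <;> cases m'.testBit (ptIdx p) <;> simp

theorem setOf_and (m m' : ℕ) : setOf (m &&& m') = setOf m ∩ setOf m' := by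
  ext p
  simp only [mem_setOf, Nat.testBit_and, Finset.mem_inter, Bool.and_eq_true]

theorem setOf_or (m m' : ℕ) : setOf (m ||| m') = setOf m ∪ setOf m' := by
  ext p
  simp only [mem_setOf, Nat.testBit_or, Finset.mem_union, Bool.or_eq_true]

theorem setOf_zero : setOf 0 = ∅ := by
  ext p
  simp [mem_setOf]

theorem setOf_full : setOf 0xffffff = Finset.univ := by
  ext p
  have h := ptIdx_lt p
  simp only [mem_setOf, Finset.mem_univ, iff_true]
  have : (0xffffff : ℕ) = 2 ^ 24 - 1 := by norm_num
  rw [this, Nat.testBit_two_pow_sub_one]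
  simpa using h

/-- The mask of a set of points. -/
def maskOf (s : Finset GolayPt) : ℕ := ∑ p ∈ s, 2 ^ ptIdx p

theorem setOf_injOn {m m' : ℕ} (hm : m < 2 ^ 24) (hm' : m' < 2 ^ 24) (h : setOf m = setOf m') :
    m = m' := by
  apply Nat.eq_of_testBit_eq
  intro i
  by_cases hi : i < 24
  · have h1 : (idxPt i ∈ setOf m) ↔ (idxPt i ∈ setOf m') := by rw [h]
    rw [mem_setOf, mem_setOf, ptIdx_idxPt hi] at h1
    cases hb : m.testBit i <;> cases hb' : m'.testBit i <;> simp_all
  · have hi' : 24 ≤ i := by omega
    have e1 : m.testBit i = false :=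
      Nat.testBit_lt_two_pow (lt_of_lt_of_le hm (Nat.pow_le_pow_right (by norm_num) hi'))
    have e2 : m'.testBit i = false :=
      Nat.testBit_lt_two_pow (lt_of_lt_of_le hm' (Nat.pow_le_pow_right (by norm_num) hi'))
    rw [e1, e2]

/-- Popcount of the lowest `k` bits. -/
def pc : ℕ → ℕ → ℕ
  | 0, _ => 0
  | k + 1, m => m % 2 + pc k (m / 2)

theorem pc_eq_card (k m : ℕ) : pc k m = ((Finset.range k).filter fun i => m.testBit i = true).card := by
  induction k generalizing m with
  | zero => simp [pc]
  | succ k ih =>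
    rw [pc, ih, Finset.card_filter, Finset.card_filter, Finset.sum_range_succ']
    simp only [Nat.testBit_add_one, Nat.testBit_zero, decide_eq_true_eq]
    rcases Nat.mod_two_eq_zero_or_one m with h | h <;> simp [h, add_comm]

theorem card_setOf (m : ℕ) : (setOf m).card = pc 24 m := by
  rw [pc_eq_card]
  apply Finset.card_bij (fun p _ => ptIdx p)
  · intro p hp
    rw [mem_setOf] at hp
    simp only [Finset.mem_filter, Finset.mem_range]
    exact ⟨ptIdx_lt p, hp⟩
  · intro p _ q _ h
    exact ptIdx_injective h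
  · intro i hi
    simp only [Finset.mem_filter, Finset.mem_range] at hi
    refine ⟨idxPt i, ?_, ptIdx_idxPt hi.1⟩
    rw [mem_setOf, ptIdx_idxPt hi.1]
    exact hi.2

/-- The masks of the `ZMod 2`-span of a list of masks. -/
def spanList : List ℕ → List ℕ
  | [] => [0]
  | b :: bs => spanList bs ++ (spanList bs).map (fun x => x ^^^ b)

theorem mem_span_iff (bs : List ℕ) (w : GolayPt → ZMod 2) :
    w ∈ Submodule.span (ZMod 2) {v | ∃ b ∈ bs, v = wordOf b} ↔ ∃ m ∈ spanList bs, w = wordOf m := by
  induction bs generalizing w with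
  | nil =>
    simp only [List.not_mem_nil, false_and, exists_false, Set.ofPred_false, Submodule.span_empty,
      Submodule.mem_bot, spanList, List.mem_singleton, exists_eq_left, wordOf_zero]
  | cons b bs ih =>
    have hset : {v | ∃ c ∈ b :: bs, v = wordOf c} = insert (wordOf b) {v | ∃ c ∈ bs, v = wordOf c} := by
      ext v
      simp only [List.mem_cons, exists_eq_or_imp, Set.mem_ofPred_eq, Set.mem_insert_iff]
    rw [hset, Submodule.mem_span_insert]
    constructor
    · rintro ⟨a, z, hz, rfl⟩
      obtain ⟨m, hm, rfl⟩ := (ih z).mp hz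
      have ha : a = 0 ∨ a = 1 := by
        revert a; decide
      rcases ha with rfl | rfl
      · refine ⟨m, ?_, by simp⟩
        simp only [spanList, List.mem_append]
        exact Or.inl hm
      · refine ⟨m ^^^ b, ?_, ?_⟩
        · simp only [spanList, List.mem_append, List.mem_map]
          exact Or.inr ⟨m, hm, rfl⟩
        · rw [wordOf_xor, one_smul, add_comm]
    · rintro ⟨m, hm, rfl⟩
      simp only [spanList, List.mem_append, List.mem_map] at hm
      rcases hm with hm | ⟨m', hm', rfl⟩
      · exact ⟨0, wordOf m, (ih _).mpr ⟨m, hm, rfl⟩, by simp⟩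
      · exact ⟨1, wordOf m', (ih _).mpr ⟨m', hm', rfl⟩, by rw [wordOf_xor, one_smul, add_comm]⟩

/-- Masks of `qrWord t`, `t = 0, …, 22`. -/
def qrMasks : List ℕ :=
  [0x5335f, 0xa66be, 0x14cd7c, 0x299af8, 0x5335f0, 0x266be1, 0x4cd7c2, 0x19af85, 0x335f0a,
   0x66be14, 0x4d7c29, 0x1af853, 0x35f0a6, 0x6be14c, 0x57c299, 0x2f8533, 0x5f0a66, 0x3e14cd, 0x7c299a, 0x785335, 0x70a66b,
   0x614cd7, 0x4299af]

/-- A basis of the code: the masks of `qrWord 0, …, qrWord 10` and of the all-ones word. -/
def basisMasks : List ℕ :=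
  [0x5335f, 0xa66be, 0x14cd7c, 0x299af8, 0x5335f0, 0x266be1, 0x4cd7c2, 0x19af85, 0x335f0a,
   0x66be14, 0x4d7c29, 0xffffff]

/-- The masks of the span of the generator basis (an auxiliary enumeration). -/
def genMasks : List ℕ := spanList basisMasks

theorem qrWord_eq_wordOf : ∀ t : ZMod 23, qrWord t = wordOf (qrMasks.getD t.val 0) := by
  have h : ∀ t : ZMod 23, ∀ p : GolayPt, qrWord t p = wordOf (qrMasks.getD t.val 0) p := by
    decide +kernel
  intro t
  funext p
  exact h t p

theorem one_eq_wordOf : (1 : GolayPt → ZMod 2) = wordOf 0xffffff := by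
  have h : ∀ p : GolayPt, (1 : GolayPt → ZMod 2) p = wordOf 0xffffff p := by
    decide +kernel
  funext p
  exact h p

theorem qrMasks_mem_genMasks : ∀ t : ZMod 23, qrMasks.getD t.val 0 ∈ genMasks := by
  decide +kernel

theorem basis_sub : ∀ b ∈ basisMasks, b = 0xffffff ∨ ∃ t : ZMod 23, b = qrMasks.getD t.val 0 := by
  decide +kernel

theorem golayCode_eq_span :
    (golayCode : Submodule (ZMod 2) (GolayPt → ZMod 2)) =
      Submodule.span (ZMod 2) {v | ∃ b ∈ basisMasks, v = wordOf b} := by
  apply le_antisymm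
  · rw [golayCode, Submodule.span_le]
    rintro g (⟨t, rfl⟩ | hg)
    · rw [SetLike.mem_coe, mem_span_iff]
      exact ⟨_, qrMasks_mem_genMasks t, qrWord_eq_wordOf t⟩
    · rw [Set.mem_singleton_iff] at hg
      subst hg
      apply Submodule.subset_span
      exact ⟨0xffffff, by decide, one_eq_wordOf⟩
  · rw [Submodule.span_le]
    rintro v ⟨b, hb, rfl⟩
    rcases basis_sub b hb with rfl | ⟨t, rfl⟩
    · rw [← one_eq_wordOf]
      exact Submodule.subset_span (Or.inr rfl)
    · rw [← qrWord_eq_wordOf]
      exact Submodule.subset_span (Or.inl ⟨t, rfl⟩)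

/-- A systematic basis of the code (listed from pivot 11 down to pivot 0): the `j`-th vector from the
end has bit `j` set and the other bits below `2 ^ 12` clear. -/
def sysBasis : List ℕ :=
  [0xe3a800, 0xb1d400, 0x7b4200, 0x3da100, 0x1ed080, 0xecc040, 0xb66020, 0x9b3010, 0x6e3008,
   0xd4b004, 0x49f002, 0xc75001]

/-- All 4096 masks of the code; the `i`-th mask has low 12 bits equal to `i`. -/
def codeMasks : List ℕ := spanList sysBasis

theorem sysBasis_sub_genMasks : ∀ b ∈ sysBasis, b ∈ genMasks := by
  decide +kernel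

theorem basisMasks_sub_codeMasks : ∀ b ∈ basisMasks, b ∈ codeMasks := by
  decide +kernel

theorem golayCode_eq_span_sys :
    (golayCode : Submodule (ZMod 2) (GolayPt → ZMod 2)) =
      Submodule.span (ZMod 2) {v | ∃ b ∈ sysBasis, v = wordOf b} := by
  rw [golayCode_eq_span]
  apply le_antisymm
  · rw [Submodule.span_le]
    rintro v ⟨b, hb, rfl⟩
    rw [SetLike.mem_coe, mem_span_iff]
    exact ⟨b, basisMasks_sub_codeMasks b hb, rfl⟩
  · rw [Submodule.span_le]
    rintro v ⟨b, hb, rfl⟩
    rw [SetLike.mem_coe, mem_span_iff]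
    exact ⟨b, sysBasis_sub_genMasks b hb, rfl⟩

theorem mem_golayCode_iff (w : GolayPt → ZMod 2) :
    w ∈ golayCode ↔ ∃ m ∈ codeMasks, w = wordOf m := by
  rw [golayCode_eq_span_sys, mem_span_iff]
  rfl

theorem mem_supports_iff (s : Finset GolayPt) :
    s ∈ supports (golayCode : Set (GolayPt → ZMod 2)) ↔ ∃ m ∈ codeMasks, s = setOf m := by
  constructor
  · rintro ⟨w, hw, rfl⟩
    obtain ⟨m, hm, rfl⟩ := (mem_golayCode_iff w).mp hw
    exact ⟨m, hm, support_wordOf m⟩
  · rintro ⟨m, hm, rfl⟩
    exact ⟨wordOf m, (mem_golayCode_iff _).mpr ⟨m, hm, rfl⟩, support_wordOf m⟩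

theorem codeMasks_map_mod : codeMasks.map (fun m => m % 4096) = List.range 4096 := by
  have h : (codeMasks.map (fun m => m % 4096) == List.range 4096) = true := by
    decide +kernel
  exact eq_of_beq h

theorem codeMasks_nodup : codeMasks.Nodup := by
  have h : (codeMasks.map (fun m => m % 4096)).Nodup := by
    rw [codeMasks_map_mod]
    exact List.nodup_range
  exact List.Nodup.of_map _ h

theorem codeMasks_length : codeMasks.length = 4096 := by
  have h := congrArg List.length codeMasks_map_mod
  simpa using h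

theorem codeMasks_lt : ∀ m ∈ codeMasks, m < 2 ^ 24 := by
  have h : codeMasks.all (fun m => Nat.blt m (2 ^ 24)) = true := by
    decide +kernel
  intro m hm
  have := List.all_eq_true.mp h m hm
  exact Nat.blt_eq.mp this

/-- Boolean weight test. -/
def wtOK (m : ℕ) : Bool :=
  let c := pc 24 m
  c == 0 || c == 8 || c == 12 || c == 16 || c == 24

theorem codeMasks_weights : ∀ m ∈ codeMasks,
    pc 24 m = 0 ∨ pc 24 m = 8 ∨ pc 24 m = 12 ∨ pc 24 m = 16 ∨ pc 24 m = 24 := by
  have h : codeMasks.all wtOK = true := by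
    decide +kernel
  intro m hm
  have := List.all_eq_true.mp h m hm
  simp only [wtOK, Bool.or_eq_true, beq_iff_eq] at this
  rcases this with (((h | h) | h) | h) | h
  · exact Or.inl h
  · exact Or.inr (Or.inl h)
  · exact Or.inr (Or.inr (Or.inl h))
  · exact Or.inr (Or.inr (Or.inr (Or.inl h)))
  · exact Or.inr (Or.inr (Or.inr (Or.inr h)))

theorem codeMasks_weight_zero : ∀ m ∈ codeMasks, pc 24 m = 0 → m = 0 := by
  have h : codeMasks.all (fun m => !(pc 24 m == 0) || m == 0) = true := by
    decide +kernel
  intro m hm h0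
  have := List.all_eq_true.mp h m hm
  simpa [h0] using this

theorem codeMasks_weight_full : ∀ m ∈ codeMasks, pc 24 m = 24 → m = 0xffffff := by
  have h : codeMasks.all (fun m => !(pc 24 m == 24) || m == 0xffffff) = true := by
    decide +kernel
  intro m hm h0
  have := List.all_eq_true.mp h m hm
  simpa [h0] using this

theorem zero_mem_codeMasks : 0 ∈ codeMasks := by
  decide +kernel

theorem full_mem_codeMasks : 0xffffff ∈ codeMasks := by
  decide +kernel

end Cfsg.Agent.H26
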